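import Cfsg.Agent.H352.HM.Max

/-!
# S5175, `StQ`: the group of order 32 (helper352, task 3053)
-/

set_option autoImplicit false

namespace Cfsg.Agent.H352.HM

open Cfsg Cfsg.FusionSystem Subgroup Cfsg.Agent.H756.HM

theorem mem_cj {Ω : Type*} [Group Ω] {V : Subgroup Ω} {x y : Ω} : y ∈ cj x V ↔ x⁻¹ * y * x ∈ V := by
  constructor
  · rintro ⟨v, hv, rfl⟩
    have h1 : x⁻¹ * ((MulAut.conj x).toMonoidHom v) * x = v := by
      show x⁻¹ * (x * v * x⁻¹) * x = v
      group
    rw [h1]
    exact hv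
  · intro h
    refine ⟨_, h, ?_⟩
    show x * (x⁻¹ * y * x) * x⁻¹ = y
    group

theorem relIndex_mul_card {G : Type*} [Group G] {H K : Subgroup G} (h : H ≤ K) :
    H.relIndex K * Nat.card H = Nat.card K := by
  have h1 := relIndex_mul_relIndex ⊥ H K bot_le h
  rw [relIndex_bot_left, relIndex_bot_left] at h1
  rw [mul_comm]
  exact h1

/-- a proper subgroup of a finite `p`-group is normalized by an element outside -/
theorem exists_normalizing {Ω : Type*} [Group Ω] {S H : Subgroup Ω} [Finite S] {p : ℕ} [Fact p.Prime]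
    (hS : IsPGroup p S) (hHS : H ≤ S) (hne : H ≠ S) : ∃ g ∈ S, g ∉ H ∧ ∀ h ∈ H, g * h * g⁻¹ ∈ H := by
  have : Group.IsNilpotent S := hS.isNilpotent
  have hlt : H.subgroupOf S < ⊤ := by
    rw [lt_top_iff_ne_top]
    intro h
    rw [subgroupOf_eq_top] at h
    exact hne (le_antisymm hHS h)
  have h1 := Group.normalizerCondition_of_isNilpotent (G := S) _ hlt
  obtain ⟨g, hg, hgn⟩ := SetLike.exists_of_lt h1
  refine ⟨g, g.2, fun h => hgn (mem_subgroupOf.2 h), fun h hh => ?_⟩
  exact mem_subgroupOf.1 ((mem_normalizer_iff.1 hg ⟨h, hHS hh⟩).1 (mem_subgroupOf.2 hh))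

theorem hol {Ω : Type*} [Group Ω] {S : Subgroup Ω} [Finite S] (hS : IsPGroup 2 S) {V T W : Subgroup Ω} {x d : Ω}
    (hVS : V ≤ S) (hN : normalizerIn S V = T) (hC : centralizerIn S V = V) (hel : ∀ v ∈ V, v * v = 1)
    (hx : x ∈ S) (hxT : ∀ t ∈ T, x * t * x⁻¹ ∈ T) (hxn : x ∉ T) (hx2 : x * x ∈ T)
    (hVcard : Nat.card V = 8)
    (hi : ∀ u ∈ V, ∀ v ∈ V, u ∉ cj x V → v ∉ cj x V → u * v ∈ cj x V)
    (hW4 : Nat.card W = 4) (hWV : W ≤ V) (hWT : ∀ t ∈ T, ∀ w ∈ W, t * w * t⁻¹ ∈ W)
    (hd1 : d ≠ 1) (hdW : d ∉ W) (hdV : d ∈ V) (hdV2 : d ∈ cj x V) (hdT : ∀ t ∈ T, t * d * t⁻¹ = d)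
    (hxd : x * d * x⁻¹ ≠ d) :
    Nat.card S = 32 ∧ ∃ r w : Ω, closure {r, w, d} = S ∧ orderOf r = 8 ∧ w ^ 2 = 1 ∧ d ^ 2 = 1 ∧
      w * r * w⁻¹ = r⁻¹ ∧ d * r * d⁻¹ = r ^ 5 ∧ w * d = d * w ∧ V = closure {r ^ 4, w, d} ∧
      closure {r ^ 4, w} = W := by
  classical
  have hfV : Finite V := Nat.finite_of_card_ne_zero (by omega)
  -- basic facts
  have hTS : T ≤ S := by rw [← hN]; exact inf_le_left
  have hTV : ∀ t ∈ T, ∀ v ∈ V, t * v * t⁻¹ ∈ V := fun t ht v hv => by
    rw [← hN] at ht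
    exact (mem_normalizer_iff.1 (Subgroup.mem_inf.1 ht).2 v).1 hv
  have hVT : V ≤ T := fun v hv => by
    rw [← hN]
    exact Subgroup.mem_inf.2 ⟨hVS hv, le_normalizer hv⟩
  have hNT : ∀ s ∈ S, (∀ v, v ∈ V ↔ s * v * s⁻¹ ∈ V) → s ∈ T := fun s hs h => by
    rw [← hN]
    exact Subgroup.mem_inf.2 ⟨hs, mem_normalizer_iff.2 h⟩
  have hCV : ∀ s ∈ S, (∀ v ∈ V, s * v = v * s) → s ∈ V := fun s hs h => by
    rw [← hC]
    exact Subgroup.mem_inf.2 ⟨hs, mem_centralizer_iff.2 fun v hv => (h v hv).symm⟩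
  have hinv : ∀ v ∈ V, v⁻¹ = v := fun v hv => inv_eq_of_mul_eq_one_left (hel v hv)
  have commV : ∀ a ∈ V, ∀ b ∈ V, a * b = b * a := fun a ha b hb => by
    have h1 := hel _ (V.mul_mem ha hb)
    have h2 : a * b = (a * b)⁻¹ := (inv_eq_of_mul_eq_one_left h1).symm
    rw [mul_inv_rev, hinv a ha, hinv b hb] at h2
    exact h2
  have hxT' : ∀ t ∈ T, x⁻¹ * t * x ∈ T := fun t ht => by
    have h1 := T.mul_mem (T.mul_mem (T.inv_mem hx2) (hxT t ht)) hx2
    have h2 : (x * x)⁻¹ * (x * t * x⁻¹) * (x * x) = x⁻¹ * t * x := by group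
    rwa [h2] at h1
  obtain ⟨V₂, hV₂⟩ : ∃ V₂, cj x V = V₂ := ⟨_, rfl⟩
  have m2 : ∀ y, y ∈ V₂ ↔ x⁻¹ * y * x ∈ V := fun y => by rw [← hV₂]; exact mem_cj
  rw [hV₂] at hi hdV2
  have hV2T : V₂ ≤ T := fun y hy => by
    have h1 := hxT _ (hVT ((m2 y).1 hy))
    have h2 : x * (x⁻¹ * y * x) * x⁻¹ = y := by group
    rwa [h2] at h1
  have hTV2 : ∀ t ∈ T, ∀ u ∈ V₂, t * u * t⁻¹ ∈ V₂ := fun t ht u hu => by
    rw [m2] at hu ⊢
    have h1 := hTV _ (hxT' t ht) _ hu
    have h2 : x⁻¹ * t * x * (x⁻¹ * u * x) * (x⁻¹ * t * x)⁻¹ = x⁻¹ * (t * u * t⁻¹) * x := by group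
    rwa [h2] at h1
  have sw1 : ∀ v ∈ V, x * v * x⁻¹ ∈ V₂ := fun v hv => by
    rw [m2]
    have h2 : x⁻¹ * (x * v * x⁻¹) * x = v := by group
    rwa [h2]
  have sw2 : ∀ u ∈ V₂, x * u * x⁻¹ ∈ V := fun u hu => by
    have h1 := hTV _ hx2 _ ((m2 u).1 hu)
    have h2 : x * x * (x⁻¹ * u * x) * (x * x)⁻¹ = x * u * x⁻¹ := by group
    rwa [h2] at h1
  have el2 : ∀ u ∈ V₂, u * u = 1 := fun u hu => by
    have h1 := hel _ ((m2 u).1 hu)
    have h2 : x⁻¹ * u * x * (x⁻¹ * u * x) = x⁻¹ * (u * u) * x := by group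
    rw [h2] at h1
    have h3 : u * u = x * (x⁻¹ * (u * u) * x) * x⁻¹ := by group
    rw [h3, h1]
    group
  have hinv2 : ∀ v ∈ V₂, v⁻¹ = v := fun v hv => inv_eq_of_mul_eq_one_left (el2 v hv)
  have commV2 : ∀ a ∈ V₂, ∀ b ∈ V₂, a * b = b * a := fun a ha b hb => by
    have h1 := el2 _ (V₂.mul_mem ha hb)
    have h2 : a * b = (a * b)⁻¹ := (inv_eq_of_mul_eq_one_left h1).symm
    rw [mul_inv_rev, hinv2 a ha, hinv2 b hb] at h2
    exact h2
  -- `V = W ∪ d W`
  have hVW : ∀ v ∈ V, v ∈ W ∨ d * v ∈ W := by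
    have h1 : W.relIndex V = 2 := by
      have h2 := relIndex_mul_card hWV
      rw [hW4, hVcard] at h2
      omega
    intro v hv
    by_cases hvW : v ∈ W
    · exact Or.inl hvW
    · right
      obtain ⟨a, ha, h3⟩ := relIndex_eq_two_iff.1 h1
      have hd' := h3 d hdV
      have hv' := h3 v hv
      have hda : d * a ∈ W := by
        rcases hd' with h | h
        · exact h.1
        · exact absurd h.1 hdW
      have hva : v * a ∈ W := by
        rcases hv' with h | h
        · exact h.1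
        · exact absurd h.1 hvW
      have h4 := W.mul_mem hda (W.inv_mem hva)
      have h5 : d * a * (v * a)⁻¹ = d * v⁻¹ := by group
      rw [h5, hinv v hv] at h4
      exact h4
  -- `w`
  have hVne : ¬ V ≤ V₂ := by
    intro hle
    apply hxn
    apply hNT x hx
    have h1 : V = V₂ := by
      have hf2 : Finite V₂ := Finite.of_injective (inclusion (hV2T.trans hTS)) (inclusion_injective _)
      apply Subgroup.eq_of_le_of_card_ge hle
      rw [← hV₂]
      exact (Nat.card_congr (V.equivMapOfInjective _ (MulAut.conj x).injective).toEquiv).ge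
    intro v
    constructor
    · intro hv
      rw [h1]
      exact sw1 v hv
    · intro hv
      have h2 : x⁻¹ * (x * v * x⁻¹) * x = v := by group
      have h3 : x * v * x⁻¹ ∈ V₂ := h1 ▸ hv
      rw [m2, h2] at h3
      exact h3
  obtain ⟨w, hwW, hw2⟩ : ∃ w ∈ W, w ∉ V₂ := by
    by_contra hcon
    push Not at hcon
    apply hVne
    intro v hv
    rcases hVW v hv with h | h
    · exact hcon v h
    · have h1 := V₂.mul_mem (V₂.inv_mem hdV2) (hcon _ h)
      rwa [inv_mul_cancel_left] at h1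
  have hwV := hWV hwW
  have hw1 : w ≠ 1 := fun h => hw2 (h ▸ V₂.one_mem)
  obtain ⟨w₂, hw₂⟩ : ∃ w₂, x * w * x⁻¹ = w₂ := ⟨_, rfl⟩
  have hw₂2 : w₂ ∈ V₂ := hw₂ ▸ sw1 w hwV
  have hw₂V : w₂ ∉ V := by
    intro h
    apply hw2
    rw [m2]
    have h1 := hTV _ (T.inv_mem hx2) _ h
    rw [← hw₂] at h1
    have h2 : (x * x)⁻¹ * (x * w * x⁻¹) * (x * x)⁻¹⁻¹ = x⁻¹ * w * x := by group
    rwa [h2] at h1
  have hw₂T := hV2T hw₂2
  have hww : w * w = 1 := hel w hwV
  have hww₂ : w₂ * w₂ = 1 := el2 w₂ hw₂2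
  have cosV : ∀ v ∈ V, v ∈ V₂ ∨ w * v ∈ V₂ := fun v hv => by
    by_cases h : v ∈ V₂
    · exact Or.inl h
    · exact Or.inr (hi w hwV v hv hw2 h)
  have cosV2 : ∀ u ∈ V₂, u ∈ V ∨ w₂ * u ∈ V := fun u hu => by
    rcases cosV _ ((m2 u).1 hu) with h | h
    · left
      have h1 := sw2 _ h
      have h2 : x * (x⁻¹ * u * x) * x⁻¹ = u := by group
      rwa [h2] at h1
    · right
      have h1 := sw2 _ h
      have h2 : x * (w * (x⁻¹ * u * x)) * x⁻¹ = x * w * x⁻¹ * u := by group
      rwa [h2, hw₂] at h1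
  -- `r`
  obtain ⟨r, hr⟩ : ∃ r, w * w₂ * w * w₂ = r := ⟨_, rfl⟩
  have hrW : r ∈ W := by
    have h1 := W.mul_mem hwW (hWT w₂ hw₂T w hwW)
    have h2 : w * (w₂ * w * w₂⁻¹) = r := by rw [hinv2 w₂ hw₂2, ← hr]; group
    rwa [h2] at h1
  have hr2 : r ∈ V₂ := by
    have h1 := V₂.mul_mem (hTV2 w (hVT hwV) w₂ hw₂2) hw₂2
    rwa [hinv w hwV, hr] at h1
  have hrV := hWV hrW
  have hrr : r * r = 1 := hel r hrV
  have hr1 : r ≠ 1 := by
    intro h
    apply hw₂V
    apply hCV w₂ (hTS hw₂T)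
    have h1 : w₂ * w = w * w₂ := by
      have h2 : w * w₂ * w * w₂ = 1 := hr.trans h
      have h3 : w * w₂ = (w * w₂)⁻¹ := by
        rw [eq_comm, inv_eq_iff_mul_eq_one, ← h2]; group
      rw [mul_inv_rev, hinv w hwV, hinv2 w₂ hw₂2] at h3
      exact h3.symm
    intro v hv
    rcases cosV v hv with h2 | h2
    · exact commV2 _ hw₂2 _ h2
    · have h3 := commV2 _ hw₂2 _ h2
      rw [← mul_assoc, h1, mul_assoc, mul_assoc] at h3
      exact mul_left_cancel h3
  have hrw : r ≠ w := fun h => hw2 (h ▸ hr2)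
  have hWe := four_cases hW4 hrW hwW hr1 hw1 hrw hrr
  have hrw2 : r * w ∉ V₂ := fun h => hw2 (by
    have h1 := V₂.mul_mem (V₂.inv_mem hr2) h
    rwa [inv_mul_cancel_left] at h1)
  have hW2 : ∀ u ∈ W, u ∈ V₂ → u = 1 ∨ u = r := fun u hu hu2 => by
    rcases hWe u hu with h | h | h | h
    · exact Or.inl h
    · exact Or.inr h
    · exact absurd (h ▸ hu2) hw2
    · exact absurd (h ▸ hu2) hrw2
  have hrd : r ≠ d := fun h => hdW (h ▸ hrW)
  have hdd : d * d = 1 := hel d hdV
  have crd : r * d = d * r := commV r hrV d hdV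
  have crw : r * w = w * r := commV r hrV w hwV
  have crw₂ : r * w₂ = w₂ * r := commV2 r hr2 w₂ hw₂2
  have cdw : d * w = w * d := commV d hdV w hwV
  have cdw₂ : d * w₂ = w₂ * d := commV2 d hdV2 w₂ hw₂2
  have hZ : ∀ z ∈ V, z ∈ V₂ → z = 1 ∨ z = r ∨ z = d ∨ z = r * d := fun z hz hz2 => by
    rcases hVW z hz with h | h
    · rcases hW2 z h hz2 with h | h
      · exact Or.inl h
      · exact Or.inr (Or.inl h)
    · rcases hW2 _ h (V₂.mul_mem hdV2 hz2) with h | h
      · right; right; left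
        have h1 : z = d⁻¹ := (inv_eq_of_mul_eq_one_right h).symm
        rw [h1, hinv d hdV]
      · right; right; right
        rw [crd, ← h, ← mul_assoc, hdd, one_mul]
  -- `T`
  have hTr : ∀ t ∈ T, t * r * t⁻¹ = r := fun t ht => by
    rcases hW2 _ (hWT t ht r hrW) (hTV2 t ht r hr2) with h | h
    · exact absurd (by
        have h1 : r = t⁻¹ * (t * r * t⁻¹) * t := by group
        rw [h1, h]; group) hr1
    · exact h
  have hcent : ∀ s ∈ T, s * w * s⁻¹ = w → s ∈ V := fun s hs hsw => by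
    apply hCV s (hTS hs)
    have a1 : s * w = w * s := by
      rw [mul_inv_eq_iff_eq_mul] at hsw; exact hsw
    have a2 : s * r = r * s := by
      have := hTr s hs
      rw [mul_inv_eq_iff_eq_mul] at this; exact this
    have a3 : s * d = d * s := by
      have := hdT s hs
      rw [mul_inv_eq_iff_eq_mul] at this; exact this
    have hcW : ∀ u ∈ W, s * u = u * s := fun u hu => by
      rcases hWe u hu with rfl | rfl | rfl | rfl
      · rw [mul_one, one_mul]
      · exact a2
      · exact a1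
      · rw [← mul_assoc, a2, mul_assoc, a1, mul_assoc]
    intro v hv
    rcases hVW v hv with h | h
    · exact hcW v h
    · have h1 := hcW _ h
      rw [← mul_assoc, a3, mul_assoc, mul_assoc] at h1
      exact mul_left_cancel h1
  have hw₂w : w₂ * w * w₂⁻¹ = w * r := by
    rw [hinv2 w₂ hw₂2, ← hr]
    have h1 : w * (w * w₂ * w * w₂) = (w * w) * w₂ * w * w₂ := by group
    rw [h1, hww, one_mul]
  have hTc : ∀ t ∈ T, t ∈ V ∨ w₂ * t ∈ V := fun t ht => by
    have h1 := hWT t ht w hwW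
    have h2 : t * w * t⁻¹ ∉ V₂ := fun h => hw2 (by
      have h3 := hTV2 _ (T.inv_mem ht) _ h
      have h4 : t⁻¹ * (t * w * t⁻¹) * t⁻¹⁻¹ = w := by group
      rwa [h4] at h3)
    rcases hWe _ h1 with h | h | h | h
    · exact absurd (h ▸ V₂.one_mem) h2
    · exact absurd (h ▸ hr2) h2
    · exact Or.inl (hcent t ht h)
    · right
      apply hcent _ (T.mul_mem hw₂T ht)
      have h3 : w₂ * t * w * (w₂ * t)⁻¹ = w₂ * (t * w * t⁻¹) * w₂⁻¹ := by group
      have h4 : w₂ * (r * w) * w₂⁻¹ = w₂ * r * w₂⁻¹ * (w₂ * w * w₂⁻¹) := by group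
      rw [h3, h, h4, hTr w₂ hw₂T, hw₂w, ← crw, ← mul_assoc, hrr, one_mul]
  have hTi : ∀ t ∈ T, t * t = 1 → t ∈ V ∨ t ∈ V₂ := fun t ht htt => by
    rcases hTc t ht with h | h
    · exact Or.inl h
    · right
      have h0 : t = w₂ * (w₂ * t) := by rw [← mul_assoc, hww₂, one_mul]
      rcases cosV _ h with h1 | h1
      · rw [h0]
        exact V₂.mul_mem hw₂2 h1
      · exfalso
        have hzV := V.mul_mem hwV h
        obtain ⟨z, hz⟩ : ∃ z, w * (w₂ * t) = z := ⟨_, rfl⟩
        rw [hz] at h1 hzV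
        have h2 : t = w₂ * w * z := by
          rw [← hz]
          have : w₂ * w * (w * (w₂ * t)) = w₂ * (w * w) * (w₂ * t) := by group
          rw [this, hww, mul_one]
          exact h0
        have hzz : z * z = 1 := hel z hzV
        have czw : z * w = w * z := commV z hzV w hwV
        have czw₂ : z * w₂ = w₂ * z := commV2 z h1 w₂ hw₂2
        have h3 : t * t = w₂ * w * w₂ * w := by
          rw [h2]
          calc w₂ * w * z * (w₂ * w * z) = w₂ * w * (z * w₂) * w * z := by group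
            _ = w₂ * w * w₂ * (z * w) * z := by rw [czw₂]; group
            _ = w₂ * w * w₂ * w * (z * z) := by rw [czw]; group
            _ = w₂ * w * w₂ * w := by rw [hzz, mul_one]
        apply hr1
        have h4 : r = w * (t * t)⁻¹ * w⁻¹ := by
          rw [h3, ← hr]
          simp only [mul_inv_rev, hinv w hwV, hinv2 w₂ hw₂2]
          have : w * (w * (w₂ * (w * w₂))) * w = (w * w) * w₂ * w * w₂ * w := by group
          rw [this, hww, one_mul]
          have h5 : w * w₂ * w * w₂ = w₂ * w * w₂ * w := by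
            have h6 : (w * w₂ * w * w₂)⁻¹ = w₂ * w * w₂ * w := by
              simp only [mul_inv_rev, hinv w hwV, hinv2 w₂ hw₂2]
              group
            have h7 : (w * w₂ * w * w₂)⁻¹ = w * w₂ * w * w₂ := by
              rw [hr]; exact hinv r hrV
            rw [← h7, h6]
          exact h5
        rw [h4, htt]
        group
  -- elements of `x T`
  have hyT : ∀ y, x⁻¹ * y ∈ T → (∀ v ∈ V, y * v * y⁻¹ ∈ V₂) ∧ (∀ u ∈ V₂, y * u * y⁻¹ ∈ V) ∧
      y * d * y⁻¹ = x * d * x⁻¹ ∧ y ∉ T ∧ y ∈ S ∧ (∀ t ∈ T, y * t * y⁻¹ ∈ T) := by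
    intro y hy
    obtain ⟨t, ht⟩ : ∃ t, x⁻¹ * y = t := ⟨_, rfl⟩
    have hyx : y = x * t := by rw [← ht]; group
    rw [ht] at hy
    refine ⟨fun v hv => ?_, fun u hu => ?_, ?_, fun h => hxn ?_, ?_, fun s hs => ?_⟩
    · have h1 := sw1 _ (hTV t hy v hv)
      have h2 : x * (t * v * t⁻¹) * x⁻¹ = y * v * y⁻¹ := by rw [hyx]; group
      rwa [h2] at h1
    · have h1 := sw2 _ (hTV2 t hy u hu)
      have h2 : x * (t * u * t⁻¹) * x⁻¹ = y * u * y⁻¹ := by rw [hyx]; group
      rwa [h2] at h1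
    · have h2 : x * (t * d * t⁻¹) * x⁻¹ = y * d * y⁻¹ := by rw [hyx]; group
      rw [← h2, hdT t hy]
    · have h1 := T.mul_mem h (T.inv_mem hy)
      rwa [hyx, mul_inv_cancel_right] at h1
    · rw [hyx]
      exact S.mul_mem hx (hTS hy)
    · have h1 := hxT _ (T.mul_mem (T.mul_mem hy hs) (T.inv_mem hy))
      have h2 : x * (t * s * t⁻¹) * x⁻¹ = y * s * y⁻¹ := by rw [hyx]; group
      rwa [h2] at h1
  -- first correction
  obtain ⟨y₁, hy₁, hy₁V, hy₁2, hy₁w⟩ : ∃ y₁, x⁻¹ * y₁ ∈ T ∧ y₁ * y₁ ∈ V ∧ y₁ * y₁ ∈ V₂ ∧ y₁ * w * y₁⁻¹ = w₂ := by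
    have hx1 : x⁻¹ * x ∈ T := by rw [inv_mul_cancel]; exact T.one_mem
    have hfix : x * (x * x) * x⁻¹ = x * x := by group
    have h2V : x * x ∈ V₂ → x * x ∈ V := fun h => by
      have h1 := sw2 _ h
      rwa [hfix] at h1
    have hV2 : x * x ∈ V → x * x ∈ V₂ := fun h => by
      have h1 := sw1 _ h
      rwa [hfix] at h1
    by_cases hc : x * x ∈ V
    · exact ⟨x, hx1, hc, hV2 hc, hw₂⟩
    · have hc' : x * x ∉ V₂ := fun h => hc (h2V h)
      have h1 := (hTc _ hx2).resolve_left hc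
      have h2 : w * (w₂ * (x * x)) ∈ V₂ := by
        rcases cosV _ h1 with h | h
        · exact absurd (by
            have h3 := V₂.mul_mem hw₂2 h
            rwa [← mul_assoc, hww₂, one_mul] at h3) hc'
        · exact h
      have h2V := V.mul_mem hwV h1
      obtain ⟨z, hz⟩ : ∃ z, w * (w₂ * (x * x)) = z := ⟨_, rfl⟩
      rw [hz] at h2 h2V
      have h3 : x * x = w₂ * w * z := by
        rw [← hz]
        have : w₂ * w * (w * (w₂ * (x * x))) = w₂ * (w * w) * w₂ * (x * x) := by group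
        rw [this, hww, mul_one, hww₂, one_mul]
      have czw : z * w = w * z := commV z h2V w hwV
      have h4 : x * w * (x * w) = z := by
        have h5 : x * w * (x * w) = x * w * x⁻¹ * (x * x) * w := by group
        rw [h5, hw₂, h3]
        calc w₂ * (w₂ * w * z) * w = (w₂ * w₂) * w * (z * w) := by group
          _ = (w₂ * w₂) * (w * w) * z := by rw [czw]; group
          _ = z := by rw [hww, hww₂, one_mul, one_mul]
      refine ⟨x * w, by rw [inv_mul_cancel_left]; exact hVT hwV, by rw [h4]; exact h2V, by rw [h4]; exact h2, ?_⟩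
      have h5 : x * w * w * (x * w)⁻¹ = x * w * x⁻¹ := by group
      rw [h5, hw₂]
  have hrinv : w₂ * w * w₂ * w = r := by
    have h6 : (w * w₂ * w * w₂)⁻¹ = w₂ * w * w₂ * w := by
      simp only [mul_inv_rev, hinv w hwV, hinv2 w₂ hw₂2]
      group
    rw [← h6, hr, hinv r hrV]
  obtain ⟨hy₁a, hy₁b, hy₁d, -, -, -⟩ := hyT y₁ hy₁
  have hy₁w₂ : y₁ * w₂ * y₁⁻¹ = w := by
    have h1 : y₁ * w₂ * y₁⁻¹ = (y₁ * y₁) * w * (y₁ * y₁)⁻¹ := by rw [← hy₁w]; group
    rw [h1, commV _ hy₁V w hwV, mul_inv_cancel_right]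
  have hy₁r : y₁ * r * y₁⁻¹ = r := by
    have h1 : y₁ * r * y₁⁻¹ = (y₁ * w * y₁⁻¹) * (y₁ * w₂ * y₁⁻¹) * (y₁ * w * y₁⁻¹) * (y₁ * w₂ * y₁⁻¹) := by
      rw [← hr]; group
    rw [h1, hy₁w, hy₁w₂, hrinv]
  have hxdr : x * d * x⁻¹ = r * d := by
    rcases hZ _ (sw2 d hdV2) (sw1 d hdV) with h | h | h | h
    · exact absurd (by
        have h1 : d = x⁻¹ * (x * d * x⁻¹) * x := by group
        rw [h1, h]; group) hd1
    · exact absurd (by
        rw [← hy₁d, ← hy₁r] at h
        exact (mul_left_cancel (mul_right_cancel h)).symm) hrd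
    · exact absurd h hxd
    · exact h
  have hyr : ∀ y, x⁻¹ * y ∈ T → y * r * y⁻¹ = r := fun y hy => by
    have h1 : y₁⁻¹ * y ∈ T := by
      have h2 := T.mul_mem (T.inv_mem hy₁) hy
      have h3 : (x⁻¹ * y₁)⁻¹ * (x⁻¹ * y) = y₁⁻¹ * y := by group
      rwa [h3] at h2
    have h2 : y * r * y⁻¹ = y₁ * (y₁⁻¹ * y * r * (y₁⁻¹ * y)⁻¹) * y₁⁻¹ := by group
    rw [h2, hTr _ h1, hy₁r]
  -- second correction
  obtain ⟨y, hy, hyy, hyw⟩ : ∃ y, x⁻¹ * y ∈ T ∧ y * y = 1 ∧ y * w * y⁻¹ = w₂ := by
    have hcom : y₁ * (y₁ * y₁) * y₁⁻¹ = y₁ * y₁ := by group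
    rcases hZ _ hy₁V hy₁2 with h | h | h | h
    · exact ⟨y₁, hy₁, h, hy₁w⟩
    · refine ⟨y₁ * d, ?_, ?_, ?_⟩
      · have h1 := T.mul_mem hy₁ (hVT hdV)
        rwa [mul_assoc] at h1
      · have h1 : y₁ * d * (y₁ * d) = y₁ * d * y₁⁻¹ * (y₁ * y₁) * d := by group
        rw [h1, hy₁d, hxdr, h]
        calc r * d * r * d = r * (d * r) * d := by group
          _ = (r * r) * (d * d) := by rw [← crd]; group
          _ = 1 := by rw [hrr, hdd, one_mul]
      · have h1 : y₁ * d * w * (y₁ * d)⁻¹ = y₁ * (d * w * d⁻¹) * y₁⁻¹ := by group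
        rw [h1, cdw, mul_inv_cancel_right, hy₁w]
    · rw [h, hy₁d] at hcom
      exact absurd hcom hxd
    · rw [h] at hcom
      have h1 : y₁ * (r * d) * y₁⁻¹ = (y₁ * r * y₁⁻¹) * (y₁ * d * y₁⁻¹) := by group
      rw [h1, hy₁r, hy₁d, hxdr] at hcom
      exact absurd (by simpa using hcom) hr1
  obtain ⟨hya, hyb, hyd, hynT, hyS, hyTT⟩ := hyT y hy
  have hyinv : y⁻¹ = y := inv_eq_of_mul_eq_one_left hyy
  have hyxT : ∀ g, y * g ∈ T → x⁻¹ * g ∈ T := fun g hg => by
    have h1 := T.mul_mem hy hg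
    have h2 : x⁻¹ * y * (y * g) = x⁻¹ * (y * y) * g := by group
    rw [h2, hyy, mul_one] at h1
    exact h1
  -- `S = T ∪ y T`
  let S₁ : Subgroup Ω :=
    { carrier := {g | g ∈ T ∨ y * g ∈ T}
      one_mem' := Or.inl T.one_mem
      mul_mem' := by
        rintro a b (ha | ha) (hb | hb)
        · exact Or.inl (T.mul_mem ha hb)
        · right
          have h1 := T.mul_mem (hyTT a ha) hb
          have h2 : y * a * y⁻¹ * (y * b) = y * (a * b) := by group
          rwa [h2] at h1
        · right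
          have h1 := T.mul_mem ha hb
          rwa [mul_assoc] at h1
        · left
          have h1 := T.mul_mem (hyTT _ ha) hb
          have h2 : y * (y * a) * y⁻¹ * (y * b) = (y * y) * (a * b) := by group
          rwa [h2, hyy, one_mul] at h1
      inv_mem' := by
        rintro a (ha | ha)
        · exact Or.inl (T.inv_mem ha)
        · right
          have h1 := hyTT _ (T.inv_mem ha)
          have h2 : y * (y * a)⁻¹ * y⁻¹ = y * a⁻¹ * (y * y)⁻¹ := by group
          rwa [h2, hyy, inv_one, mul_one] at h1 }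
  have mS₁ : ∀ g, g ∈ S₁ ↔ g ∈ T ∨ y * g ∈ T := fun g => Iff.rfl
  have hS₁S : S₁ ≤ S := by
    rintro g (hg | hg)
    · exact hTS hg
    · have h1 := S.mul_mem hyS (hTS hg)
      rwa [← mul_assoc, hyy, one_mul] at h1
  have hSeq : S₁ = S := by
    by_contra hne
    have : Fact (Nat.Prime 2) := ⟨Nat.prime_two⟩
    obtain ⟨g, hgS, hgn, hgN⟩ := exists_normalizing hS hS₁S hne
    obtain ⟨B, hB⟩ : ∃ B, cj g V = B := ⟨_, rfl⟩
    have mB : ∀ u, u ∈ B ↔ g⁻¹ * u * g ∈ V := fun u => by rw [← hB]; exact mem_cj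
    have cardB : Nat.card B = 8 := by
      rw [← hB, ← hVcard]
      exact (Nat.card_congr (V.equivMapOfInjective _ (MulAut.conj g).injective).toEquiv).symm
    have hfB : Finite B := Nat.finite_of_card_ne_zero (by omega)
    have elB : ∀ u ∈ B, u * u = 1 := fun u hu => by
      have h1 := hel _ ((mB u).1 hu)
      have h2 : g⁻¹ * u * g * (g⁻¹ * u * g) = g⁻¹ * (u * u) * g := by group
      rw [h2] at h1
      have h3 : u * u = g * (g⁻¹ * (u * u) * g) * g⁻¹ := by group
      rw [h3, h1]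
      group
    have invB : ∀ u ∈ B, u⁻¹ = u := fun u hu => inv_eq_of_mul_eq_one_left (elB u hu)
    have commB : ∀ a ∈ B, ∀ b ∈ B, a * b = b * a := fun a ha b hb => by
      have h1 := elB _ (B.mul_mem ha hb)
      have h2 : a * b = (a * b)⁻¹ := (inv_eq_of_mul_eq_one_left h1).symm
      rw [mul_inv_rev, invB a ha, invB b hb] at h2
      exact h2
    have hBS₁ : B ≤ S₁ := fun u hu => by
      have h1 := hgN _ (Or.inl (hVT ((mB u).1 hu)) : g⁻¹ * u * g ∈ S₁)
      have h2 : g * (g⁻¹ * u * g) * g⁻¹ = u := by group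
      rwa [h2] at h1
    have cardV2 : Nat.card V₂ = 8 := by
      rw [← hV₂, ← hVcard]
      exact (Nat.card_congr (V.equivMapOfInjective _ (MulAut.conj x).injective).toEquiv).symm
    have hBor : B = V ∨ B = V₂ := by
      by_cases hBT : B ≤ T
      · by_cases h1 : B ≤ V
        · left
          exact Subgroup.eq_of_le_of_card_ge h1 (by rw [cardB, hVcard])
        · by_cases h2 : B ≤ V₂
          · right
            have hf2 : Finite V₂ := Nat.finite_of_card_ne_zero (by omega)
            exact Subgroup.eq_of_le_of_card_ge h2 (by rw [cardB, cardV2])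
          · exfalso
            obtain ⟨a, haB, haV⟩ := SetLike.not_le_iff_exists.1 h1
            obtain ⟨b, hbB, hbV⟩ := SetLike.not_le_iff_exists.1 h2
            have ha2 := (hTi a (hBT haB) (elB a haB)).resolve_left haV
            have hb2 := (hTi b (hBT hbB) (elB b hbB)).resolve_right hbV
            rcases hTi _ (hBT (B.mul_mem haB hbB)) (elB _ (B.mul_mem haB hbB)) with h | h
            · exact haV ((Subgroup.mul_mem_cancel_right V hb2).1 h)
            · exact hbV ((Subgroup.mul_mem_cancel_left V₂ ha2).1 h)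
      · exfalso
        obtain ⟨b, hbB, hbT⟩ := SetLike.not_le_iff_exists.1 hBT
        have hyb' : y * b ∈ T := ((mS₁ b).1 (hBS₁ hbB)).resolve_left hbT
        obtain ⟨hba, hbb, hbd, -, -, -⟩ := hyT b (hyxT b hyb')
        have hbr := hyr b (hyxT b hyb')
        have hsmall : ∀ u ∈ B, u ∈ T → u = 1 ∨ u = r := fun u hu hut => by
          have hub : b * u * b⁻¹ = u := by rw [commB b hbB u hu, mul_inv_cancel_right]
          have huV : u ∈ V ∧ u ∈ V₂ := by
            rcases hTi u hut (elB u hu) with h | h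
            · exact ⟨h, hub ▸ hba u h⟩
            · exact ⟨hub ▸ hbb u h, h⟩
          rcases hZ u huV.1 huV.2 with h | h | h | h
          · exact Or.inl h
          · exact Or.inr h
          · rw [h, hbd] at hub
            exact absurd hub hxd
          · rw [h] at hub
            have h1 : b * (r * d) * b⁻¹ = (b * r * b⁻¹) * (b * d * b⁻¹) := by group
            rw [h1, hbr, hbd, hxdr] at hub
            exact absurd (by simpa using hub) hr1
        have hsub : (B : Set Ω) ⊆ (({1, r, b, b * r} : Finset Ω) : Set Ω) := by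
          intro u hu
          simp only [Finset.coe_insert, Finset.coe_singleton, Set.mem_insert_iff, Set.mem_singleton_iff]
          by_cases hut : u ∈ T
          · rcases hsmall u hu hut with h | h
            · exact Or.inl h
            · exact Or.inr (Or.inl h)
          · have hyu : y * u ∈ T := ((mS₁ u).1 (hBS₁ hu)).resolve_left hut
            have hbu : b * u ∈ T := by
              have h1 := T.mul_mem (T.inv_mem hyb') hyu
              have h2 : (y * b)⁻¹ * (y * u) = b⁻¹ * u := by group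
              rwa [h2, invB b hbB] at h1
            have hbb' := elB b hbB
            rcases hsmall _ (B.mul_mem hbB hu) hbu with h | h
            · right; right; left
              have h1 : u = b * (b * u) := by rw [← mul_assoc, hbb', one_mul]
              rw [h1, h, mul_one]
            · right; right; right
              have h1 : u = b * (b * u) := by rw [← mul_assoc, hbb', one_mul]
              rw [h1, h]
        have h1 := Set.ncard_le_ncard hsub (Set.toFinite _)
        rw [Set.ncard_coe_finset, ← Nat.card_coe_set_eq] at h1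
        have h2 : ({1, r, b, b * r} : Finset Ω).card ≤ 4 := Finset.card_le_four
        have h3 : Nat.card ↥B = Nat.card ↑(B : Set Ω) := rfl
        omega
    apply hgn
    rcases hBor with h | h
    · left
      apply hNT g hgS
      intro v
      constructor
      · intro hv
        rw [← h, mB]
        have h2 : g⁻¹ * (g * v * g⁻¹) * g = v := by group
        rwa [h2]
      · intro hv
        rw [← h, mB] at hv
        have h2 : g⁻¹ * (g * v * g⁻¹) * g = v := by group
        rwa [h2] at hv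
    · right
      have hyinvS : y * g ∈ S := S.mul_mem hyS hgS
      apply hNT _ hyinvS
      have hB2 : ∀ v, v ∈ V ↔ g * v * g⁻¹ ∈ V₂ := fun v => by
        rw [← h, mB]
        have h2 : g⁻¹ * (g * v * g⁻¹) * g = v := by group
        rw [h2]
      intro v
      rw [hB2]
      constructor
      · intro hv
        have h1 := hyb _ hv
        have h2 : y * (g * v * g⁻¹) * y⁻¹ = y * g * v * (y * g)⁻¹ := by group
        rwa [h2] at h1
      · intro hv
        have h1 := hya _ hv
        have h2 : y * (y * g * v * (y * g)⁻¹) * y⁻¹ = (y * y) * (g * v * g⁻¹) * (y * y)⁻¹ := by group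
        rw [h2, hyy, one_mul, inv_one, mul_one] at h1
        exact h1
  have hST : ∀ g ∈ S, g ∈ T ∨ y * g ∈ T := fun g hg => (mS₁ g).1 (hSeq ▸ hg)
  -- the orders
  have hfT : Finite T := Finite.of_injective (inclusion hTS) (inclusion_injective hTS)
  have hcT : Nat.card T = 16 := by
    have h1 : V.relIndex T = 2 := by
      rw [relIndex_eq_two_iff]
      refine ⟨w₂, hw₂T, fun t ht => ?_⟩
      by_cases h : t ∈ V
      · right
        refine ⟨h, fun h2 => hw₂V ((Subgroup.mul_mem_cancel_left V h).1 h2)⟩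
      · left
        have h2 := (hTc t ht).resolve_left h
        refine ⟨?_, h⟩
        have h3 := hTV w₂ hw₂T _ h2
        have h4 : w₂ * (w₂ * t) * w₂⁻¹ = (w₂ * w₂) * t * w₂⁻¹ := by group
        rw [h4, hww₂, one_mul, hinv2 w₂ hw₂2] at h3
        exact h3
    have h2 := relIndex_mul_card hVT
    rw [h1, hVcard] at h2
    omega
  have hcS : Nat.card S = 32 := by
    have h1 : T.relIndex S = 2 := by
      rw [relIndex_eq_two_iff]
      refine ⟨y, hyS, fun g hg => ?_⟩
      by_cases h : g ∈ T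
      · right
        refine ⟨h, fun h2 => hynT ((Subgroup.mul_mem_cancel_left T h).1 h2)⟩
      · left
        have h2 := (hST g hg).resolve_left h
        refine ⟨?_, h⟩
        have h3 := hyTT _ h2
        have h4 : y * (y * g) * y⁻¹ = (y * y) * g * y⁻¹ := by group
        rw [h4, hyy, one_mul, hyinv] at h3
        exact h3
    have h2 := relIndex_mul_card hTS
    rw [h1, hcT] at h2
    omega
  -- the element of order `8`
  have hwyinv : (w * y)⁻¹ = y * w := by rw [mul_inv_rev, hyinv, hinv w hwV]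
  have hrho2 : (w * y) * (w * y) = w * w₂ := by
    have h1 : w * y * (w * y) = w * (y * w * y⁻¹) * (y * y) := by group
    rw [h1, hyw, hyy, mul_one]
  have hrho4 : (w * y) ^ 4 = r := by
    have h1 : (w * y) ^ 4 = ((w * y) * (w * y)) * ((w * y) * (w * y)) := by
      simp only [pow_succ, pow_zero, one_mul, mul_assoc]
    rw [h1, hrho2, ← hr]
    group
  have hrho5 : (w * y) ^ 5 = r * (w * y) := by
    rw [pow_succ, hrho4]
  have hclW : closure {(w * y) ^ 4, w} = W := by
    rw [hrho4]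
    apply le_antisymm
    · rw [closure_le]
      rintro u (rfl | rfl)
      · exact hrW
      · exact hwW
    · intro u hu
      have h1 : r ∈ closure ({r, w} : Set Ω) := subset_closure (by simp)
      have h2 : w ∈ closure ({r, w} : Set Ω) := subset_closure (by simp)
      rcases hWe u hu with h | h | h | h
      · rw [h]; exact one_mem _
      · rw [h]; exact h1
      · rw [h]; exact h2
      · rw [h]; exact mul_mem h1 h2
  have hclV : V = closure {(w * y) ^ 4, w, d} := by
    apply le_antisymm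
    · have h1 : closure {(w * y) ^ 4, w} ≤ closure {(w * y) ^ 4, w, d} :=
        closure_mono (by
          intro u hu
          rcases hu with hu | hu
          · exact Or.inl hu
          · exact Or.inr (Or.inl hu))
      have h2 : d ∈ closure {(w * y) ^ 4, w, d} := subset_closure (by simp)
      rw [hclW] at h1
      intro v hv
      rcases hVW v hv with h | h
      · exact h1 h
      · have h3 := mul_mem h2 (h1 h)
        rwa [← mul_assoc, hdd, one_mul] at h3
    · rw [closure_le, hrho4]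
      rintro u (rfl | rfl | rfl)
      · exact hrV
      · exact hwV
      · exact hdV
  refine ⟨hcS, w * y, w, ?_, ?_, ?_, ?_, ?_, ?_, ?_, hclV, hclW⟩
  · apply le_antisymm
    · rw [closure_le]
      rintro u (rfl | rfl | rfl)
      · exact S.mul_mem (hVS hwV) hyS
      · exact hVS hwV
      · exact hVS hdV
    · have k1 : w * y ∈ closure ({w * y, w, d} : Set Ω) := subset_closure (by simp)
      have k2 : w ∈ closure ({w * y, w, d} : Set Ω) := subset_closure (by simp)
      have k3 : d ∈ closure ({w * y, w, d} : Set Ω) := subset_closure (by simp)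
      have k4 : V ≤ closure ({w * y, w, d} : Set Ω) := by
        rw [hclV, closure_le]
        rintro u (rfl | rfl | rfl)
        · exact pow_mem k1 4
        · exact k2
        · exact k3
      have k5 : y ∈ closure ({w * y, w, d} : Set Ω) := by
        have := mul_mem (inv_mem k2) k1
        rwa [inv_mul_cancel_left] at this
      have k6 : w₂ ∈ closure ({w * y, w, d} : Set Ω) := by
        rw [← hyw]
        exact mul_mem (mul_mem k5 k2) (inv_mem k5)
      have k7 : T ≤ closure ({w * y, w, d} : Set Ω) := fun t ht => by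
        rcases hTc t ht with h | h
        · exact k4 h
        · have := mul_mem k6 (k4 h)
          rwa [← mul_assoc, hww₂, one_mul] at this
      intro g hg
      rcases hST g hg with h | h
      · exact k7 h
      · have := mul_mem k5 (k7 h)
        rwa [← mul_assoc, hyy, one_mul] at this
  · have h1 : orderOf (w * y) = 2 ^ (2 + 1) := by
      apply orderOf_eq_prime_pow
      · rw [show 2 ^ 2 = 4 by norm_num, hrho4]
        exact hr1
      · rw [show 2 ^ (2 + 1) = 4 * 2 by norm_num, pow_mul, hrho4, pow_two, hrr]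
    exact h1
  · rw [pow_two, hww]
  · rw [pow_two, hdd]
  · rw [hwyinv, ← mul_assoc, hww, one_mul, hinv w hwV]
  · rw [hrho5]
    have h1 : d * (w * y) * d⁻¹ = d * w * (y * d⁻¹ * y⁻¹) * y := by group
    rw [h1, hinv d hdV, hyd, hxdr, cdw]
    calc w * d * (r * d) * y = w * (d * r) * d * y := by group
      _ = w * r * (d * d) * y := by rw [← crd]; group
      _ = r * (w * y) := by rw [hdd, mul_one, ← crw]; group
  · exact cdw.symm

end Cfsg.Agent.H352.HM
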