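import Cfsg.Agent.H756.HM.Stmts
import Cfsg.Agent.TwoFusion.MaxClass

/-!
# S5175, `StMax` (helper352, task 3053)
-/

set_option autoImplicit false

namespace Cfsg.Agent.H352.HM

open Cfsg Cfsg.FusionSystem Subgroup Cfsg.Agent.H756.HM

/-- the elements of a four-group -/
theorem four_cases {G : Type*} [Group G] {V : Subgroup G} (h4 : Nat.card V = 4) {a b : G} (ha : a ∈ V) (hb : b ∈ V)
    (ha1 : a ≠ 1) (hb1 : b ≠ 1) (hab : a ≠ b) (ha2 : a * a = 1) :
    ∀ u ∈ V, u = 1 ∨ u = a ∨ u = b ∨ u = a * b := by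
  classical
  have hfin : Finite V := Nat.finite_of_card_ne_zero (by omega)
  have hb' : b ≠ a * b := fun h => ha1 (by simpa using h.symm)
  have ha' : a ≠ a * b := fun h => hb1 (by simpa using h.symm)
  have h1' : 1 ≠ a * b := fun h => hab (by
    have h2 : a * 1 = a * (a * b) := by rw [← h]
    rw [mul_one, ← mul_assoc, ha2, one_mul] at h2
    exact h2)
  have h2 : ({1, a, b, a * b} : Finset G).card = 4 := by
    rw [Finset.card_insert_of_notMem, Finset.card_insert_of_notMem, Finset.card_insert_of_notMem,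
      Finset.card_singleton]
    · simpa using hb'
    · simp only [Finset.mem_insert, Finset.mem_singleton, not_or]
      exact ⟨hab, ha'⟩
    · simp only [Finset.mem_insert, Finset.mem_singleton, not_or]
      exact ⟨ha1.symm, hb1.symm, h1'⟩
  have h1 : (({1, a, b, a * b} : Finset G) : Set G) = V := by
    apply Set.eq_of_subset_of_ncard_le _ _ (Set.toFinite _)
    · intro u hu
      simp only [Finset.coe_insert, Finset.coe_singleton, Set.mem_insert_iff, Set.mem_singleton_iff] at hu
      rcases hu with rfl | rfl | rfl | rfl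
      · exact V.one_mem
      · exact ha
      · exact hb
      · exact V.mul_mem ha hb
    · rw [Set.ncard_coe_finset, h2, ← Nat.card_coe_set_eq]
      exact h4.le
  intro u hu
  have h3 : u ∈ (({1, a, b, a * b} : Finset G) : Set G) := h1 ▸ hu
  simpa using h3

theorem stMax : StMax := by
  intro Ω _ S _ hS V hVS h4 hel hC hN
  -- inside `S`
  have hcV : Nat.card ↥(V.subgroupOf S) = 4 := by
    rw [Nat.card_congr (Subgroup.subgroupOfEquivOfLe hVS).toEquiv, h4]
  have hnn : ¬ (V.subgroupOf S).Normal := by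
    intro h
    apply hN
    apply le_antisymm inf_le_left
    refine le_inf le_rfl fun g hg => ?_
    rw [mem_normalizer_iff]
    intro v
    constructor
    · intro hv
      exact h.conj_mem ⟨v, hVS hv⟩ hv ⟨g, hg⟩
    · intro hv
      have hvS : v ∈ S := by
        have h1 := S.mul_mem (S.mul_mem (S.inv_mem hg) (hVS hv)) hg
        have h2 : g⁻¹ * (g * v * g⁻¹) * g = v := by group
        rwa [h2] at h1
      have h1 := h.conj_mem ⟨g * v * g⁻¹, hVS hv⟩ hv ⟨g⁻¹, S.inv_mem hg⟩
      have h2 : g⁻¹ * (g * v * g⁻¹) * g⁻¹⁻¹ = v := by group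
      have h3 : g⁻¹ * (g * v * g⁻¹) * g⁻¹⁻¹ ∈ V := h1
      rwa [h2] at h3
  have hidx := (V.subgroupOf S).card_mul_index
  rw [hcV] at hidx
  have hi1 : (V.subgroupOf S).index ≠ 1 := fun h => hnn (by rw [index_eq_one.1 h]; infer_instance)
  have hi2 : (V.subgroupOf S).index ≠ 2 := fun h => hnn (normal_of_index_eq_two h)
  have : Fact (Nat.Prime 2) := ⟨Nat.prime_two⟩
  obtain ⟨k, hk⟩ := IsPGroup.iff_card.1 hS
  have h16 : 16 ≤ Nat.card S := by
    have h0 : (V.subgroupOf S).index ≠ 0 := index_ne_zero_of_finite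
    have h1 : (V.subgroupOf S).index ∣ 2 ^ k := hk ▸ (V.subgroupOf S).index_dvd_card
    obtain ⟨j, -, hj⟩ := (Nat.dvd_prime_pow Nat.prime_two).1 h1
    rw [hj] at hi1 hi2 hidx
    have h2 : 2 ≤ j := by
      by_contra h2
      have h3 : j = 0 ∨ j = 1 := by omega
      rcases h3 with rfl | rfl
      · exact hi1 rfl
      · exact hi2 rfl
    have h3 : 2 ^ 2 ≤ 2 ^ j := Nat.pow_le_pow_right (by norm_num) h2
    omega
  -- a noncentral involution `v` of `V`
  have hZV : ∀ z ∈ center S, (z : Ω) ∈ V := by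
    intro z hz
    rw [← hC]
    refine Subgroup.mem_inf.2 ⟨z.2, mem_centralizer_iff.2 ?_⟩
    intro v hv
    exact congrArg Subtype.val (mem_center_iff.1 hz ⟨v, hVS hv⟩)
  obtain ⟨v, hv, hvZ⟩ : ∃ v : S, (v : Ω) ∈ V ∧ v ∉ center S := by
    by_contra hcon
    push Not at hcon
    apply hnn
    refine ⟨fun n hn g => ?_⟩
    have h1 := mem_center_iff.1 (hcon n hn) g
    rw [h1, mul_inv_cancel_right]
    exact hn
  have hnt : Nontrivial S := ⟨v, 1, fun h => hvZ (h ▸ one_mem _)⟩
  have hnt2 : Nontrivial (center S) := hS.center_nontrivial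
  obtain ⟨z, hz⟩ := exists_ne (1 : center S)
  have hz1 : (z : S) ≠ 1 := fun h => hz (Subtype.ext h)
  have hv1 : v ≠ 1 := fun h => hvZ (h ▸ one_mem _)
  have hzv : ((z : S) : Ω) ≠ v := fun h => hvZ (by
    rw [← Subtype.ext h]
    exact z.2)
  have hzc : ∀ s : S, s * (z : S) = (z : S) * s := fun s => mem_center_iff.1 z.2 s
  have hall := four_cases h4 (hZV z z.2) hv (fun h => hz1 (Subtype.ext h)) (fun h => hv1 (Subtype.ext h)) hzv
    (by have := hel _ (hZV z z.2); rwa [pow_two] at this)
  have hcen : centralizer ({v} : Set S) = V.subgroupOf S := by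
    ext c
    rw [mem_centralizer_singleton_iff, mem_subgroupOf]
    constructor
    · intro hc
      rw [← hC]
      refine Subgroup.mem_inf.2 ⟨c.2, mem_centralizer_iff.2 ?_⟩
      intro u hu
      have hcv : (c : Ω) * v = v * c := congrArg Subtype.val hc
      have hcz : (c : Ω) * ((z : S) : Ω) = ((z : S) : Ω) * c := congrArg Subtype.val (hzc c)
      rcases hall u hu with rfl | rfl | rfl | rfl
      · rw [one_mul, mul_one]
      · exact hcz.symm
      · exact hcv.symm
      · rw [mul_assoc, ← hcv, ← mul_assoc, ← hcz, mul_assoc]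
    · intro hc
      rw [← hC] at hc
      exact Subtype.ext ((mem_centralizer_iff.1 hc.2 v hv).symm)
  have hov : orderOf v = 2 := by
    rw [← Subgroup.orderOf_coe]
    exact orderOf_eq_prime (hel _ hv) (fun h => hv1 (Subtype.ext h))
  rcases Cfsg.Agent.TwoFusion.MaxClass.dihedral_or_qd_of_card_centralizer_eq_four hS v hov hvZ
    (by rw [hcen, hcV]) with ⟨m, -, ⟨e⟩⟩ | h
  · left
    refine ⟨m, ?_, ⟨e⟩⟩
    have h1 := Nat.card_congr e.toEquiv
    rw [DihedralGroup.nat_card] at h1
    omega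
  · exact Or.inr h

end Cfsg.Agent.H352.HM
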